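-- Team project PG63 (S3664): package [LORD] (helper11).
import Mathlib
import Cfsg.Agent.Lib.Helper14.PG63.Defs

/-!
# PG63 [LORD]: the products of two primes among the element orders of `L = Sz(8) ⋊ ⟨frobenius⟩`
-/

set_option autoImplicit false

namespace Cfsg.Agent.Lib.Helper11.PG63

open Matrix Cfsg.Agent.Lib.Helper14.PG63

universe u

section

variable {F : Type u} [Field F]

/-- powers of an element with trivial automorphism part -/
theorem pow_left_of_right_one (y : Amb F) (hy : y.right = 1) (n : ℕ) :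
    (y ^ n).left = y.left ^ n ∧ (y ^ n).right = 1 := by
  induction n with
  | zero => exact ⟨by simp, by simp⟩
  | succ n ih =>
    obtain ⟨ih1, ih2⟩ := ih
    refine ⟨?_, ?_⟩
    · rw [pow_succ, SemidirectProduct.mul_left, ih1, ih2, map_one, pow_succ]
      rfl
    · rw [pow_succ, SemidirectProduct.mul_right, ih2, hy, mul_one]

theorem pow_eq_one_of_right_one (y : Amb F) (hy : y.right = 1) (n : ℕ)
    (h : (y.left : Matrix (Fin 4) (Fin 4) F) ^ n = 1) : y ^ n = 1 := by
  obtain ⟨h1, h2⟩ := pow_left_of_right_one y hy n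
  apply SemidirectProduct.ext
  · rw [h1, SemidirectProduct.one_left]
    apply Units.ext
    rw [Units.val_pow_eq_pow_val, h, Units.val_one]
  · rw [h2, SemidirectProduct.one_right]

end

theorem no_rs {r s : ℕ} (hr : r.Prime) (hs : s.Prime) (hne : r ≠ s) {p k : ℕ} (hp : p.Prime)
    (h : r * s ∣ p ^ k) : False := by
  have h1 : r ∣ p ^ k := Dvd.dvd.trans (Dvd.intro _ rfl) h
  have h2 : s ∣ p ^ k := Dvd.dvd.trans (Dvd.intro_left _ rfl) h
  have e1 := (Nat.prime_dvd_prime_iff_eq hr hp).mp (hr.dvd_of_dvd_pow h1)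
  have e2 := (Nat.prime_dvd_prime_iff_eq hs hp).mp (hs.dvd_of_dvd_pow h2)
  exact hne (e1.trans e2.symm)

/-- the common core of [LORD] and [LPRIME]: an element `y` of `L` whose automorphism part is not
trivial has `y ^ 12 = 1` or `y ^ 15 = 1`; otherwise `y ^ m = 1` for some `m ∈ {4, 5, 7, 13}`. -/
theorem l_pow_cases (hStr : Str.{u}) (hCls : Cls.{u}) (hFrob : Frob.{u})
    {F : Type u} [Field F] [Fintype F] [CharP F 2] (hF : Fintype.card F = 8)
    (y : Amb F) (hyL : y ∈ L F) :
    (y.right = 1 ∧ (y ^ 4 = 1 ∨ y ^ 5 = 1 ∨ y ^ 7 = 1 ∨ y ^ 13 = 1)) ∨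
      (y.right ≠ 1 ∧ orderOf y.right = 3 ∧ (y ^ (3 * 4) = 1 ∨ y ^ (3 * 5) = 1)) := by
  obtain ⟨hfo, hfix⟩ := hFrob hF
  obtain ⟨hPg, hτ⟩ := hStr hF y hyL
  have hτ3 : y.right ^ 3 = 1 := by
    obtain ⟨k, hk⟩ := Subgroup.mem_zpowers_iff.mp hτ
    rw [← hk, ← zpow_natCast, ← _root_.zpow_mul, mul_comm, _root_.zpow_mul, zpow_natCast, ← hfo,
      pow_orderOf_eq_one, _root_.one_zpow]
  by_cases hτ1 : y.right = 1
  · left
    refine ⟨hτ1, ?_⟩
    rcases hCls hF _ hPg with ⟨-, h⟩ | ⟨-, h⟩ | ⟨-, h⟩ | ⟨-, h⟩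
    · exact Or.inl (pow_eq_one_of_right_one y hτ1 4 h)
    · exact Or.inr (Or.inl (pow_eq_one_of_right_one y hτ1 5 h))
    · exact Or.inr (Or.inr (Or.inl (pow_eq_one_of_right_one y hτ1 7 h)))
    · exact Or.inr (Or.inr (Or.inr (pow_eq_one_of_right_one y hτ1 13 h)))
  · right
    have h2 : orderOf y.right = 3 := by
      have hd : orderOf y.right ∣ 3 := orderOf_dvd_of_pow_eq_one hτ3
      rcases (Nat.dvd_prime Nat.prime_three).mp hd with h | h
      · exact absurd (orderOf_eq_one_iff.mp h) hτ1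
      · exact h
    refine ⟨hτ1, h2, ?_⟩
    obtain ⟨t, ht⟩ : ∃ t : Amb F, t = y ^ 3 := ⟨_, rfl⟩
    have htL : t ∈ L F := ht ▸ pow_mem hyL 3
    have htr : t.right = 1 := by
      rw [ht]
      have : (y ^ 3).right = y.right ^ 3 :=
        map_pow (SemidirectProduct.rightHom (φ := mapHom F)) y 3
      rw [this, hτ3]
    obtain ⟨hPt, -⟩ := hStr hF t htL
    have hcomm : y * t = t * y := by
      rw [ht, ← pow_succ', ← pow_succ]
    have hleft : (y.left : Matrix (Fin 4) (Fin 4) F) *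
        (t.left : Matrix (Fin 4) (Fin 4) F).map y.right =
        (t.left : Matrix (Fin 4) (Fin 4) F) * (y.left : Matrix (Fin 4) (Fin 4) F) := by
      have e := congrArg
        (fun z : Amb F => ((z.left : GL (Fin 4) F) : Matrix (Fin 4) (Fin 4) F)) hcomm
      simp only [SemidirectProduct.mul_left, Units.val_mul, mapHom_coe, htr] at e
      rw [e]
      congr 1
    have htrace : y.right (Matrix.trace (t.left : Matrix (Fin 4) (Fin 4) F)) =
        Matrix.trace (t.left : Matrix (Fin 4) (Fin 4) F) := by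
      have e1 : Matrix.trace ((t.left : Matrix (Fin 4) (Fin 4) F).map y.right) =
          y.right (Matrix.trace (t.left : Matrix (Fin 4) (Fin 4) F)) := by
        simp [Matrix.trace, map_sum]
      rw [← e1]
      have e2 : (t.left : Matrix (Fin 4) (Fin 4) F).map y.right =
          ((y.left⁻¹ : GL (Fin 4) F) : Matrix (Fin 4) (Fin 4) F) *
            ((t.left : Matrix (Fin 4) (Fin 4) F) * (y.left : Matrix (Fin 4) (Fin 4) F)) := by
        rw [← hleft, ← Matrix.mul_assoc, ← Units.val_mul, inv_mul_cancel, Units.val_one,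
          Matrix.one_mul]
      rw [e2, Matrix.trace_mul_comm, Matrix.mul_assoc, ← Units.val_mul, mul_inv_cancel,
        Units.val_one, Matrix.mul_one]
    have hc := hfix y.right hτ hτ1 _ htrace
    have h10 : (1 : F) ≠ 0 := one_ne_zero
    have h11 : (1 : F) + 1 = 0 := CharTwo.add_self_eq_zero 1
    have key : ∀ m : ℕ, (t.left : Matrix (Fin 4) (Fin 4) F) ^ m = 1 → y ^ (3 * m) = 1 := by
      intro m hm
      rw [pow_mul, ← ht]
      exact pow_eq_one_of_right_one t htr m hm
    rcases hCls hF _ hPt with ⟨-, h⟩ | ⟨-, h⟩ | ⟨h0, -⟩ | ⟨h0, -⟩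
    · exact Or.inl (key 4 h)
    · exact Or.inr (key 5 h)
    · exfalso
      rcases hc with hc | hc
      · rw [hc] at h0
        simp at h0
      · rw [hc, h11] at h0
        simp at h0
    · exfalso
      rcases hc with hc | hc
      · rw [hc] at h0
        simp at h0
      · rw [hc] at h0
        rw [one_pow, one_pow, h11] at h0
        exact h10 h0

/-- [LORD] -/
theorem pkgLOrd : PkgLOrd.{u} := by
  intro hStr hCls hFrob F _ _ _ hF x r s hr hs hne hord
  obtain ⟨y, hy⟩ : ∃ y : Amb F, y = (x : Amb F) := ⟨_, rfl⟩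
  have hyL : y ∈ L F := hy ▸ x.2
  have hoy : orderOf y = r * s := by rw [hy, Subgroup.orderOf_coe, hord]
  have hdvd : ∀ m : ℕ, y ^ m = 1 → r * s ∣ m := fun m hm => hoy ▸ orderOf_dvd_of_pow_eq_one hm
  rcases l_pow_cases hStr hCls hFrob hF y hyL with ⟨-, h | h | h | h⟩ | ⟨-, hτo, hm⟩
  · exact (no_rs hr hs hne Nat.prime_two (k := 2) (hdvd 4 h)).elim
  · exact (no_rs hr hs hne (p := 5) (by norm_num) (k := 1) (hdvd 5 h)).elim
  · exact (no_rs hr hs hne (p := 7) (by norm_num) (k := 1) (hdvd 7 h)).elim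
  · exact (no_rs hr hs hne (p := 13) (by norm_num) (k := 1) (hdvd 13 h)).elim
  · have h3 : 3 ∣ r * s := by
      have h1 : orderOf y.right ∣ orderOf y := by
        have := orderOf_map_dvd (SemidirectProduct.rightHom (φ := mapHom F)) y
        simpa using this
      rw [← hoy, ← hτo]
      exact h1
    have hm' : r * s ∣ 3 * 4 ∨ r * s ∣ 3 * 5 := hm.imp (hdvd _) (hdvd _)
    have h5 : Nat.Prime 5 := by norm_num
    rcases (Nat.Prime.dvd_mul Nat.prime_three).mp h3 with h | h
    · have hr3 : r = 3 := ((Nat.prime_dvd_prime_iff_eq Nat.prime_three hr).mp h).symm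
      subst hr3
      rcases hm' with hm' | hm'
      · have h4 : s ∣ 2 ^ 2 := Nat.dvd_of_mul_dvd_mul_left (by norm_num) hm'
        have : s = 2 := (Nat.prime_dvd_prime_iff_eq hs Nat.prime_two).mp (hs.dvd_of_dvd_pow h4)
        exact Or.inr (Or.inl ⟨rfl, this⟩)
      · have h4 : s ∣ 5 := Nat.dvd_of_mul_dvd_mul_left (by norm_num) hm'
        have : s = 5 := (Nat.prime_dvd_prime_iff_eq hs h5).mp h4
        exact Or.inr (Or.inr (Or.inl ⟨rfl, this⟩))
    · have hs3 : s = 3 := ((Nat.prime_dvd_prime_iff_eq Nat.prime_three hs).mp h).symm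
      subst hs3
      rcases hm' with hm' | hm'
      · have h4 : r ∣ 2 ^ 2 := Nat.dvd_of_mul_dvd_mul_right (k := 3) (by norm_num)
          (by have := hm'; norm_num at this ⊢; exact this)
        have : r = 2 := (Nat.prime_dvd_prime_iff_eq hr Nat.prime_two).mp (hr.dvd_of_dvd_pow h4)
        exact Or.inl ⟨this, rfl⟩
      · have h4 : r ∣ 5 := Nat.dvd_of_mul_dvd_mul_right (k := 3) (by norm_num)
          (by have := hm'; norm_num at this ⊢; exact this)
        have : r = 5 := (Nat.prime_dvd_prime_iff_eq hr h5).mp h4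
        exact Or.inr (Or.inr (Or.inr ⟨this, rfl⟩))

end Cfsg.Agent.Lib.Helper11.PG63
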