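-- Team project PG63 (S3664): package [LPRIME] (helper11).
import Mathlib
import Cfsg.Agent.Lib.Helper14.PG63.Defs
import Cfsg.Agent.Lib.Helper11.PG63.LOrd

/-!
# PG63 [LPRIME]: the prime element orders of `L = Sz(8) ⋊ ⟨frobenius⟩` are `2, 3, 5, 7, 13`
-/

set_option autoImplicit false

namespace Cfsg.Agent.Lib.Helper11.PG63

open Matrix Cfsg.Agent.Lib.Helper14.PG63

universe u

/-- [LPRIME] -/
theorem pkgLPrime : PkgLPrime.{u} := by
  intro hStr hCls hFrob F _ _ _ hF x p hp hord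
  obtain ⟨y, hy⟩ : ∃ y : Amb F, y = (x : Amb F) := ⟨_, rfl⟩
  have hyL : y ∈ L F := hy ▸ x.2
  have hoy : orderOf y = p := by rw [hy, Subgroup.orderOf_coe, hord]
  have hdvd : ∀ m : ℕ, y ^ m = 1 → p ∣ m := fun m hm => hoy ▸ orderOf_dvd_of_pow_eq_one hm
  have h5 : Nat.Prime 5 := by norm_num
  have h7 : Nat.Prime 7 := by norm_num
  have h13 : Nat.Prime 13 := by norm_num
  have e2 : p ∣ 2 ^ 2 → p = 2 := fun h =>
    (Nat.prime_dvd_prime_iff_eq hp Nat.prime_two).mp (hp.dvd_of_dvd_pow h)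
  unfold Vx
  rcases l_pow_cases hStr hCls hFrob hF y hyL with ⟨-, h | h | h | h⟩ | ⟨-, -, h | h⟩
  · exact Or.inl (e2 (hdvd 4 h))
  · exact Or.inr (Or.inr (Or.inl ((Nat.prime_dvd_prime_iff_eq hp h5).mp (hdvd 5 h))))
  · exact Or.inr (Or.inr (Or.inr (Or.inl ((Nat.prime_dvd_prime_iff_eq hp h7).mp (hdvd 7 h)))))
  · exact Or.inr (Or.inr (Or.inr (Or.inr ((Nat.prime_dvd_prime_iff_eq hp h13).mp (hdvd 13 h)))))
  · rcases (Nat.Prime.dvd_mul hp).mp (hdvd _ h) with h' | h'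
    · exact Or.inr (Or.inl ((Nat.prime_dvd_prime_iff_eq hp Nat.prime_three).mp h'))
    · exact Or.inl (e2 h')
  · rcases (Nat.Prime.dvd_mul hp).mp (hdvd _ h) with h' | h'
    · exact Or.inr (Or.inl ((Nat.prime_dvd_prime_iff_eq hp Nat.prime_three).mp h'))
    · exact Or.inr (Or.inr (Or.inl ((Nat.prime_dvd_prime_iff_eq hp h5).mp h')))

end Cfsg.Agent.Lib.Helper11.PG63
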